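import Cfsg.Agent.H419.EP.Iface

/-!
# S3499: kill criteria (helper571)

`M̂0 = Â ∩ Â^x`.
* `kill_self`: `M̂0` is self-normalising in `Â`;
* `kill_pow`: an element of `Â` which centralises all `b ^ k`, `b ∈ M̂0`, lies in `Â^x` (if some `b ^ k` is not scalar).
-/

set_option autoImplicit false

namespace Cfsg.Agent.H571.EP

open Subgroup Cfsg.Agent.H284 Cfsg.Agent.H419.EP
open scoped MatrixGroups

section Q

variable {Q : Type*} [Group Q] {A : Subgroup Q} {Γ : Subgroup (MulAut Q)}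

/-- `N_A(M0) = M0` -/
theorem self_norm (h : EPT A Γ) {x : Q} (hx : x ∉ A) {g : Q} (hg : g ∈ A)
    (hgM : ∀ b ∈ A ⊓ cj x A, g * b * g⁻¹ ∈ cj x A) : g ∈ cj x A := by
  refine h.norm_aut hx (K := A ⊓ cj x A) le_rfl (fun σ hσ k hk => hσ k hk) (h.M0 x hx) hg ?_
  intro k hk
  exact ⟨A.mul_mem (A.mul_mem hg (mem_inf.1 hk).1) (A.inv_mem hg), hgM k hk⟩

/-- an element of `A` centralising all `b ^ k`, `b ∈ M0`, lies in `A ^ x` -/
theorem pow_norm (h : EPT A Γ) {x : Q} (hx : x ∉ A) (k : ℕ) (hne : ∃ b ∈ A ⊓ cj x A, b ^ k ≠ 1) {g : Q} (hg : g ∈ A)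
    (hc : ∀ b ∈ A ⊓ cj x A, g * b ^ k * g⁻¹ = b ^ k) : g ∈ cj x A := by
  refine h.norm_aut hx (K := closure {c | ∃ b ∈ A ⊓ cj x A, c = b ^ k}) ?_ ?_ ?_ hg ?_
  · rw [closure_le]
    rintro _ ⟨b, hb, rfl⟩
    exact pow_mem hb k
  · intro σ hσ c hc'
    induction hc' using closure_induction with
    | mem c hc' =>
      obtain ⟨b, hb, rfl⟩ := hc'
      exact subset_closure ⟨σ b, hσ b hb, map_pow σ b k⟩
    | one => rw [map_one]; exact one_mem _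
    | mul a b _ _ ha hb => rw [map_mul]; exact mul_mem ha hb
    | inv a _ ha => rw [map_inv]; exact inv_mem ha
  · obtain ⟨b, hb, hb1⟩ := hne
    intro e
    apply hb1
    have h1 : b ^ k ∈ closure {c | ∃ b ∈ A ⊓ cj x A, c = b ^ k} := subset_closure ⟨b, hb, rfl⟩
    rw [e, mem_bot] at h1
    exact h1
  · intro c hc'
    induction hc' using closure_induction with
    | mem c hc' =>
      obtain ⟨b, hb, rfl⟩ := hc'
      rw [hc b hb]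
      exact subset_closure ⟨b, hb, rfl⟩
    | one => rw [mul_one, mul_inv_cancel]; exact one_mem _
    | mul a b _ _ ha hb =>
      have : g * (a * b) * g⁻¹ = (g * a * g⁻¹) * (g * b * g⁻¹) := by group
      rw [this]; exact mul_mem ha hb
    | inv a _ ha =>
      have : g * a⁻¹ * g⁻¹ = (g * a * g⁻¹)⁻¹ := by group
      rw [this]; exact inv_mem ha

end Q

section Hat

variable {Q : Type*} [Group Q] [Finite Q] {A : Subgroup Q} {Γ : Subgroup (MulAut Q)}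
variable {ι : Type} [Fintype ι] [DecidableEq ι] {F : Type*} [Field F] {S : Subgroup (GL ι F)} (m : Model Q S)

/-- membership in `Â ∩ Â^x` -/
theorem mem_M0 {x : GL ι F} (hxS : x ∈ S) {b : Q} (hb : b ∈ A ⊓ cj (m.π ⟨x, hxS⟩) A) :
    ∃ s : S, m.π s = b ∧ (s : GL ι F) ∈ m.hat A ⊓ cj x (m.hat A) := by
  rw [M0_eq_map m hxS] at hb
  obtain ⟨s, hs, rfl⟩ := hb
  exact ⟨s, rfl, hs⟩

theorem mem_cj_hat {x : GL ι F} (hxS : x ∈ S) (s : S) :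
    (s : GL ι F) ∈ cj x (m.hat A) ↔ m.π s ∈ cj (m.π ⟨x, hxS⟩) A := by
  rw [← m.hat_cj A ⟨x, hxS⟩]
  exact m.mem_hat_iff s

/-- **`M̂0 = Â ∩ Â^x` is self-normalising in `Â`.** -/
theorem kill_self (h : EPT A Γ) {x : GL ι F} (hxS : x ∈ S) (hx : x ∉ m.hat A) {g : GL ι F} (hg : g ∈ m.hat A)
    (hgM : ∀ k ∈ m.hat A ⊓ cj x (m.hat A), g * k * g⁻¹ ∈ cj x (m.hat A)) : g ∈ cj x (m.hat A) := by
  have hx' : m.π ⟨x, hxS⟩ ∉ A := fun e => hx ((m.mem_hat_iff ⟨x, hxS⟩).2 e)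
  obtain ⟨hgS, hgA⟩ := m.mem_hat.1 hg
  have h1 := self_norm h hx' hgA (by
    intro b hb
    obtain ⟨s, rfl, hs⟩ := mem_M0 m hxS hb
    have h2 := hgM s hs
    have h3 := (mem_cj_hat m hxS (⟨g, hgS⟩ * s * ⟨g, hgS⟩⁻¹ : S)).1 h2
    rwa [map_mul, map_mul, map_inv] at h3)
  exact (mem_cj_hat m hxS ⟨g, hgS⟩).2 h1

/-- **An element of `Â` centralising all `b ^ k`, `b ∈ M̂0 = Â ∩ Â^x`, lies in `Â^x`** (some `b ^ k` not scalar). -/
theorem kill_pow (h : EPT A Γ) {x : GL ι F} (hxS : x ∈ S) (hx : x ∉ m.hat A) (k : ℕ)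
    (hne : ∃ b ∈ m.hat A ⊓ cj x (m.hat A), b ^ k ∉ Cfsg.Geo.scalars ι F) {g : GL ι F} (hg : g ∈ m.hat A)
    (hc : ∀ b ∈ m.hat A ⊓ cj x (m.hat A), g * b ^ k = b ^ k * g) : g ∈ cj x (m.hat A) := by
  have hx' : m.π ⟨x, hxS⟩ ∉ A := fun e => hx ((m.mem_hat_iff ⟨x, hxS⟩).2 e)
  obtain ⟨hgS, hgA⟩ := m.mem_hat.1 hg
  obtain ⟨b, hb, hb1⟩ := hne
  have h1 := pow_norm h hx' k ?_ hgA ?_
  · exact (mem_cj_hat m hxS ⟨g, hgS⟩).2 h1
  · obtain ⟨hbS, hbA⟩ := m.mem_hat.1 (mem_inf.1 hb).1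
    refine ⟨m.π ⟨b, hbS⟩, ⟨hbA, (mem_cj_hat m hxS ⟨b, hbS⟩).1 (mem_inf.1 hb).2⟩, ?_⟩
    rw [← map_pow]
    intro e
    exact hb1 ((m.ker _).1 e)
  · intro c hc'
    obtain ⟨s, rfl, hs⟩ := mem_M0 m hxS hc'
    have h2 : (⟨g, hgS⟩ : S) * s ^ k = s ^ k * ⟨g, hgS⟩ := Subtype.ext (hc s hs)
    rw [mul_inv_eq_iff_eq_mul, ← map_pow, ← map_mul, ← map_mul, h2]

end Hat

end Cfsg.Agent.H571.EP
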