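import Cfsg.Agent.H571.EP.QMain

/-!
# `g ^ 4` commutes with `y` (helper571, S3499 Om-C3, q = 2)
-/

set_option autoImplicit false
set_option linter.unusedSectionVars false

namespace Cfsg.Agent.H571.EP.Two

open QuadraticMap Module
open Cfsg.Agent.LieClassical.OrthCore Cfsg.Agent.LieClassical.OrthTrans Cfsg.Agent.LieClassical.OrthFinite

section

variable {F E V : Type*} [Field F] [Field E] [Algebra F E] [AddCommGroup V] [Module F V]
  [Module E V] [IsScalarTower F E V] {Q : QuadraticForm F V} {QE : QuadraticForm E V} {ω : E} {e₁ e₂ : V}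

theorem Dat.coA (h : Om F ω) (D : Dat QE ω e₁ e₂) (s t : E) : polar QE e₂ (s • e₁ + t • e₂) = s := by
  rw [polar_add_right, polar_smul_right, polar_smul_right, D.p', h.alt, smul_eq_mul, mul_one, smul_zero, add_zero]

theorem Dat.coB (h : Om F ω) (D : Dat QE ω e₁ e₂) (s t : E) : polar QE e₁ (s • e₁ + t • e₂) = t := by
  rw [polar_add_right, polar_smul_right, polar_smul_right, D.p, h.alt, smul_zero, zero_add, smul_eq_mul, mul_one]

theorem Dat.coQ (D : Dat QE ω e₁ e₂) (s t : E) : QE (s • e₁ + t • e₂) = s * s + s * t + ω * (t * t) := by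
  rw [Q_add, QuadraticMap.map_smul, QuadraticMap.map_smul, polar_smul_left, polar_smul_right, D.q1, D.q2, D.p]
  simp only [smul_eq_mul]
  ring

theorem Dat.coP (h : Om F ω) (D : Dat QE ω e₁ e₂) (s t s' t' : E) :
    polar QE (s • e₁ + t • e₂) (s' • e₁ + t' • e₂) = s * t' + t * s' := by
  rw [polar_add_left, polar_smul_left, polar_smul_left, D.coA h, D.coB h]
  simp only [smul_eq_mul]

/-- the perp of the perp -/
theorem perp_per (h : Om F ω) (D : Dat QE ω e₁ e₂) (hnd : Nondeg QE) {z : V}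
    (hz : ∀ w, Per QE e₁ e₂ w → polar QE z w = 0) : z = polar QE e₂ z • e₁ + polar QE e₁ z • e₂ := by
  have hdec : ∀ v : V, Per QE e₁ e₂ (v - (polar QE e₂ v • e₁ + polar QE e₁ v • e₂)) := by
    intro v
    refine ⟨?_, ?_⟩
    · rw [polar_sub_right, D.coA h, sub_self]
    · rw [polar_sub_right, D.coB h, sub_self]
  have hz' := hdec z
  set z' := z - (polar QE e₂ z • e₁ + polar QE e₁ z • e₂) with hzd
  have h0 : z' = 0 := by
    apply hnd
    intro w
    have hw' := hdec w
    set w' := w - (polar QE e₂ w • e₁ + polar QE e₁ w • e₂) with hwd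
    have e1 : w = w' + (polar QE e₂ w • e₁ + polar QE e₁ w • e₂) := by rw [hwd]; abel
    rw [e1, polar_add_right, polar_add_right, polar_smul_right, polar_smul_right, polar_comm _ z' e₁, polar_comm _ z' e₂,
      hz'.1, hz'.2, hzd, polar_sub_left, hz w' hw', polar_add_left, polar_smul_left, polar_smul_left, hw'.1, hw'.2]
    simp
  exact sub_eq_zero.1 h0

theorem yy_coord (h : Om F ω) (D : Dat QE ω e₁ e₂) (a b : E) :
    yy h D (a • e₁ + b • e₂) = ((ω + 1) * b) • e₁ + (ω * (a + b)) • e₂ := by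
  rw [yy_apply, D.coA h, D.coB h]
  have e1 : (ω + 1) * b = a + (a + (ω + 1) * b) := by linear_combination (-a) * h.two
  have e2 : ω * (a + b) = b + (ω * a + (ω + 1) * b) := by linear_combination (-b) * h.two
  have e0 : a • e₁ + b • e₂ + (a + (ω + 1) * b) • e₁ + (ω * a + (ω + 1) * b) • e₂ =
      (a + (a + (ω + 1) * b)) • e₁ + (b + (ω * a + (ω + 1) * b)) • e₂ := by module
  rw [e0, ← e1, ← e2]

theorem yy_fix (h : Om F ω) (D : Dat QE ω e₁ e₂) {v : V} (hv : Per QE e₁ e₂ v) : yy h D v = v := by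
  rw [yy_apply, hv.1, hv.2]
  simp

/-- `g ^ 4` commutes with `y`. -/
theorem comm_four [FiniteDimensional F V] (h : Om F ω) (hnd : Nondeg QE) (D : Dat QE ω e₁ e₂)
    (hval : ∀ v, Q v = Algebra.trace F E (QE v))
    (hpol : ∀ u v, polar Q u v = Algebra.trace F E (polar QE u v))
    (h4 : ∀ (k : E) v, Q ((k * k) • v) = Algebra.trace F E (k * QE v)) (hw : Q ((ω + 1) • e₁) ≠ 0)
    (hE : finrank F E = 2) (hn : 7 ≤ finrank F V) {g : V ≃ₗ[F] V} (hgO : g ∈ O Q)
    (hg : Semi ω g) (hg' : Semi ω ((xx h D hw)⁻¹ * g * xx h D hw)) (v : V) :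
    g (g (g (g (yy h D v)))) = yy h D (g (g (g (g v)))) := by
  have hHω : ∀ v, g (g (ω • v)) = ω • g (g v) := by
    intro v
    rcases hg with hg | hg
    · rw [hg, hg]
    · rw [hg, add_smul, one_smul, map_add, hg]
      have : (ω + 1) • g (g v) + g (g v) = ω • g (g v) + (1 + 1 : E) • g (g v) := by module
      rw [this, h.add_self, zero_smul, add_zero]
  have hHk : ∀ (k : E) v, g (g (k • v)) = k • g (g v) := by
    intro k v
    rcases h.all k with e | e | e | e
    · rw [e, zero_smul, zero_smul, map_zero, map_zero]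
    · rw [e, one_smul, one_smul]
    · rw [e, hHω]
    · rw [e, add_smul, add_smul, one_smul, one_smul, map_add, map_add, hHω]
  have hHQ : ∀ v, QE (g (g v)) = QE v := by
    intro v
    apply h.ext_tr
    intro k
    rw [← h4, ← h4, ← hHk, hgO, hgO]
  have hHp : ∀ u v, polar QE (g (g u)) (g (g v)) = polar QE u v := by
    intro u v
    rw [QuadraticMap.polar, ← map_add, ← map_add, hHQ, hHQ, hHQ]
    rfl
  have hper : ∀ {v}, Per QE e₁ e₂ v → Per QE e₁ e₂ (g v) := fun hv => per_pres h D hval hpol hw hE hn hg hg' hv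
  have hgi' : Semi ω ((xx h D hw)⁻¹ * g⁻¹ * xx h D hw) := by
    have e1 : (xx h D hw)⁻¹ * g⁻¹ * xx h D hw = ((xx h D hw)⁻¹ * g * xx h D hw)⁻¹ := by group
    rw [e1]
    exact semi_inv h hg'
  have hperi : ∀ {v}, Per QE e₁ e₂ v → Per QE e₁ e₂ (g⁻¹ v) :=
    fun hv => per_pres h D hval hpol hw hE hn (semi_inv h hg) hgi' hv
  have hgg : ∀ v, g (g⁻¹ v) = v := fun v => LinearEquiv.apply_symm_apply g v
  have hperp : ∀ u, (∀ w, Per QE e₁ e₂ w → polar QE u w = 0) → ∀ w, Per QE e₁ e₂ w → polar QE (g (g u)) w = 0 := by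
    intro u hu w hw'
    have e1 : w = g (g (g⁻¹ (g⁻¹ w))) := by rw [hgg, hgg]
    rw [e1, hHp]
    exact hu _ (hperi (hperi hw'))
  have hH1 := perp_per h D hnd (hperp e₁ fun w hw' => hw'.2)
  have hH2 := perp_per h D hnd (hperp e₂ fun w hw' => hw'.1)
  set p := polar QE e₂ (g (g e₁)) with hp
  set q := polar QE e₁ (g (g e₁)) with hq
  set r := polar QE e₂ (g (g e₂)) with hr
  set s := polar QE e₁ (g (g e₂)) with hs
  clear_value p q r s
  have R1 : p * p + p * q + ω * (q * q) = 1 := by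
    have := hHQ e₁
    rwa [hH1, D.coQ, D.q1] at this
  have R2 : r * r + r * s + ω * (s * s) = ω := by
    have := hHQ e₂
    rwa [hH2, D.coQ, D.q2] at this
  have R3 : p * s + q * r = 1 := by
    have := hHp e₁ e₂
    rwa [hH1, hH2, D.coP h, D.p] at this
  have R1' : s * s + s * q + ω * (q * q) = 1 := by
    linear_combination (-1 * s * s) * R1 + (-1 * s * q) * R3 + (-1 * q * q) * R2 + (p * s + q * r + 1) * R3 +
      (-1 * p * q * r * s + p * q * s * s + q * q * r * s + q * q * s * s * ω) * h.two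
  have R2' : r * r + r * p + ω * (p * p) = ω := by
    linear_combination (-1 * r * r) * R1 + (-1 * r * p) * R3 + (-1 * p * p) * R2 + (ω * (p * s + q * r + 1)) * R3 +
      (-1 * p * q * r * s * ω + p * q * r * r + p * p * r * s + p * p * r * r) * h.two
  have S1 : (p + s) * (p + s) = q * (p + s) := by
    linear_combination R1 + R1' + (1 - 1 * p * q + p * s - 1 * q * s - 1 * q * q * ω) * h.two
  have S2 : ω * r * (p + s) = (ω + 1) * q * (p + s) := by
    linear_combination ω * R2 + ω * R2' - (p + s) * (p + s) * h.sq - (ω + 1) * S1 +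
      (-1 * p * q - 1 * p * q * ω + p * s * ω * ω - 1 * q * s - 1 * q * s * ω - 1 * r * r * ω + ω * ω) * h.two
  have hHc : ∀ a b : E, g (g (a • e₁ + b • e₂)) = (a * p + b * r) • e₁ + (a * q + b * s) • e₂ := by
    intro a b
    rw [map_add, map_add, hHk, hHk, hH1, hH2]
    module
  have hU : ∀ a b : E, g (g (g (g (yy h D (a • e₁ + b • e₂))))) = yy h D (g (g (g (g (a • e₁ + b • e₂))))) := by
    intro a b
    rw [yy_coord, hHc, hHc, hHc, hHc, yy_coord]
    congr 2
    · linear_combination a * S2 + (b * (ω + 1)) * S1 + b * S2 +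
        (b * p * q + b * p * q * ω - 1 * b * p * s - 1 * b * p * s * ω + b * q * s + b * q * s * ω - 1 * b * s * s -
          1 * b * s * s * ω) * h.two
    · linear_combination (a * ω) * S1 - b * S2 + (-1 * a * p * s * ω - 1 * a * p * p * ω) * h.two
  have hw' : Per QE e₁ e₂ (v - (polar QE e₂ v • e₁ + polar QE e₁ v • e₂)) := by
    refine ⟨?_, ?_⟩
    · rw [polar_sub_right, D.coA h, sub_self]
    · rw [polar_sub_right, D.coB h, sub_self]
  have e1 : v = (v - (polar QE e₂ v • e₁ + polar QE e₁ v • e₂)) + (polar QE e₂ v • e₁ + polar QE e₁ v • e₂) := by abel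
  generalize v - (polar QE e₂ v • e₁ + polar QE e₁ v • e₂) = w at e1 hw'
  generalize polar QE e₂ v = a at e1
  generalize polar QE e₁ v = b at e1
  have m : ∀ s t, g (g (g (g (s + t)))) = g (g (g (g s))) + g (g (g (g t))) := by
    intro s t
    rw [map_add, map_add, map_add, map_add]
  rw [e1, map_add (yy h D) w, m, hU, yy_fix h D hw', m w, map_add (yy h D) (g (g (g (g w)))),
    yy_fix h D (hper (hper (hper (hper hw'))))]

end

end Cfsg.Agent.H571.EP.Two
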