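import Cfsg.Agent.H571.EP.QForm

/-!
# The elements `x`, `y`, `a` (helper571, S3499 Om-C3, q = 2)
-/

set_option autoImplicit false
set_option linter.unusedSectionVars false

namespace Cfsg.Agent.H571.EP.Two

open QuadraticMap Module
open Cfsg.Agent.LieClassical.OrthCore Cfsg.Agent.LieClassical.OrthTrans Cfsg.Agent.LieClassical.OrthFinite

section

variable {F E V : Type*} [Field F] [Field E] [Algebra F E] [AddCommGroup V] [Module F V]
  [Module E V] [IsScalarTower F E V] {Q : QuadraticForm F V} {QE : QuadraticForm E V} {ω : E}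

theorem Om.tt (h : Om F ω) (k : E) : algebraMap F E (Algebra.trace F E k) = k + k * k := by
  rcases h.all k with e | e | e | e
  · rw [e]; simp
  · rw [e, h.tr1, map_zero, mul_one, h.add_self]
  · rw [e, h.trω, map_one]
    linear_combination (-1 : E) * h.sq - ω * h.two
  · rw [e, map_add, h.trω, h.tr1, add_zero, map_one]
    linear_combination (-1 : E) * h.sq - (2 * ω + 1) * h.two

theorem Om.inv (h : Om F ω) : ω⁻¹ = ω + 1 := by
  apply inv_eq_of_mul_eq_one_right
  linear_combination h.sq + ω * h.two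

theorem Om.alt (h : Om F ω) (QE : QuadraticForm E V) (v : V) : polar QE v v = 0 := by
  rw [polar_self', h.two, zero_mul]

/-- the two vectors -/
structure Dat (QE : QuadraticForm E V) (ω : E) (e₁ e₂ : V) : Prop where
  q1 : QE e₁ = 1
  q2 : QE e₂ = ω
  p : polar QE e₁ e₂ = 1

theorem exists_dat [Finite E] (h : Om F ω) (hQ : Nondeg QE) (hd : 3 ≤ finrank E V) : ∃ e₁ e₂ : V, Dat QE ω e₁ e₂ := by
  obtain ⟨x, hx0, hx, -⟩ := exists_sing_perp (Q := QE) (n := 0) Fin.elim0 (by omega)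
  obtain ⟨y, hxy⟩ := exists_hyp hQ hx hx0
  obtain ⟨a, c, h1, h2, h3, h4, h5⟩ := exists_perp2 hQ hd hxy
  obtain ⟨w, hxw, hyw, hw⟩ : ∃ w, polar QE x w = 0 ∧ polar QE y w = 0 ∧ QE w ≠ 0 := by
    rcases exists_nonsing h5 with h | h | h
    · exact ⟨a, h1, h2, h⟩
    · exact ⟨c, h3, h4, h⟩
    · exact ⟨a + c, by rw [polar_add_right, h1, h3, add_zero], by rw [polar_add_right, h2, h4, add_zero], h⟩
  set l : E := (ω * (QE w)⁻¹) * (ω * (QE w)⁻¹) with hl
  have hll : l * l * QE w = ω := by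
    rw [hl, h.pow_four, mul_assoc, inv_mul_cancel₀ hw, mul_one]
  refine ⟨x + y, x + l • w, ?_, ?_, ?_⟩
  · rw [Q_add, hx, hxy.right, hxy.pair, add_zero, zero_add]
  · rw [Q_add, QuadraticMap.map_smul, hx, polar_smul_right, hxw, smul_zero, add_zero, zero_add, smul_eq_mul, hll]
  · rw [polar_add_left, polar_add_right, polar_add_right, polar_smul_right, polar_smul_right, hxw, hyw, hxy.polar_left,
      hxy.pair']
    simp

variable {e₁ e₂ : V}

theorem Dat.p' (D : Dat QE ω e₁ e₂) : polar QE e₂ e₁ = 1 := by rw [polar_comm]; exact D.p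

theorem Dat.q1' (D : Dat QE ω e₁ e₂) : QE e₁ ≠ 0 := by rw [D.q1]; exact one_ne_zero

theorem Dat.q2' (h : Om F ω) (D : Dat QE ω e₁ e₂) : QE e₂ ≠ 0 := by rw [D.q2]; exact h.ne_zero

/-- `y = [s₁, s₂]` has order five on the plane `U = E e₁ + E e₂`. -/
def yy (h : Om F ω) (D : Dat QE ω e₁ e₂) : V ≃ₗ[E] V :=
  refl QE e₁ D.q1' * refl QE e₂ (D.q2' h) * (refl QE e₁ D.q1')⁻¹ * (refl QE e₂ (D.q2' h))⁻¹

theorem yy_apply (h : Om F ω) (D : Dat QE ω e₁ e₂) (v : V) :
    yy h D v = v + (polar QE e₂ v + (ω + 1) * polar QE e₁ v) • e₁ + (ω * polar QE e₂ v + (ω + 1) * polar QE e₁ v) • e₂ := by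
  set a := polar QE e₂ v with ha
  set b := polar QE e₁ v with hb
  have e0 : yy h D v = refl QE e₁ D.q1' (refl QE e₂ (D.q2' h) (refl QE e₁ D.q1' (refl QE e₂ (D.q2' h) v))) := by
    rw [yy, refl_inv, refl_inv]
    rfl
  have e1 : refl QE e₂ (D.q2' h) v = v + ((ω + 1) * a) • e₂ := by
    rw [refl_apply, D.q2, h.inv, ← ha, sub_eq_add_neg, ← neg_smul, h.neg]
  have e2 : refl QE e₁ D.q1' (v + ((ω + 1) * a) • e₂) = v + ((ω + 1) * a) • e₂ + (b + (ω + 1) * a) • e₁ := by
    rw [refl_apply, D.q1, inv_one, one_mul, sub_eq_add_neg, ← neg_smul, h.neg, polar_add_right, polar_smul_right, D.p,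
      ← hb, smul_eq_mul, mul_one]
  have e3 : refl QE e₂ (D.q2' h) (v + ((ω + 1) * a) • e₂ + (b + (ω + 1) * a) • e₁) =
      v + ((ω + 1) * a) • e₂ + (b + (ω + 1) * a) • e₁ + ((ω + 1) * (a + (b + (ω + 1) * a))) • e₂ := by
    rw [refl_apply, D.q2, h.inv, sub_eq_add_neg, ← neg_smul, h.neg, polar_add_right, polar_add_right, polar_smul_right,
      polar_smul_right, h.alt, D.p', ← ha, smul_zero, add_zero, smul_eq_mul, mul_one]
  have e4 : refl QE e₁ D.q1' (v + ((ω + 1) * a) • e₂ + (b + (ω + 1) * a) • e₁ + ((ω + 1) * (a + (b + (ω + 1) * a))) • e₂) =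
      v + ((ω + 1) * a) • e₂ + (b + (ω + 1) * a) • e₁ + ((ω + 1) * (a + (b + (ω + 1) * a))) • e₂ +
        (b + (ω + 1) * a + (ω + 1) * (a + (b + (ω + 1) * a))) • e₁ := by
    rw [refl_apply, D.q1, inv_one, one_mul, sub_eq_add_neg, ← neg_smul, h.neg, polar_add_right, polar_add_right,
      polar_add_right, polar_smul_right, polar_smul_right, polar_smul_right, D.p, h.alt, ← hb, smul_zero, add_zero,
      smul_eq_mul, smul_eq_mul, mul_one, mul_one]
  rw [e0, e1, e2, e3, e4]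
  have e5 : b + (ω + 1) * a + (b + (ω + 1) * a + (ω + 1) * (a + (b + (ω + 1) * a))) = a + (ω + 1) * b := by
    linear_combination a * h.sq + (b + (3 * ω + 2) * a) * h.two
  have e6 : (ω + 1) * a + (ω + 1) * (a + (b + (ω + 1) * a)) = ω * a + (ω + 1) * b := by
    linear_combination a * h.sq + (2 * ω * a + 2 * a) * h.two
  rw [← e5, ← e6]
  module

theorem yy_mem (h : Om F ω) (D : Dat QE ω e₁ e₂) : yy h D ∈ O QE := by
  rw [yy]
  exact mul_mem (mul_mem (mul_mem (refl_mem_O _) (refl_mem_O _)) (inv_mem (refl_mem_O _))) (inv_mem (refl_mem_O _))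

theorem res_mem {T : V ≃ₗ[E] V} (hval : ∀ v, Q v = Algebra.trace F E (QE v)) (hT : T ∈ O QE) :
    T.restrictScalars F ∈ O Q := by
  intro v
  show Q (T v) = Q v
  rw [hval, hval, hT v]

theorem Q_ww (h : Om F ω) (D : Dat QE ω e₁ e₂) (hval : ∀ v, Q v = Algebra.trace F E (QE v)) :
    Q ((ω + 1) • e₁) = 1 := by
  rw [hval, QuadraticMap.map_smul, D.q1, smul_eq_mul, mul_one]
  have : (ω + 1) * (ω + 1) = ω := by linear_combination h.sq + (ω + 1) * h.two
  rw [this, h.trω]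

/-- `x = [r, y]`, `r` the reflection in `(ω + 1) e₁` -/
def xx (h : Om F ω) (D : Dat QE ω e₁ e₂) (hw : Q ((ω + 1) • e₁) ≠ 0) : V ≃ₗ[F] V :=
  refl Q ((ω + 1) • e₁) hw * (yy h D).restrictScalars F * (refl Q ((ω + 1) • e₁) hw)⁻¹ *
    ((yy h D).restrictScalars F)⁻¹

theorem xx_apply (h : Om F ω) (D : Dat QE ω e₁ e₂) (hval : ∀ v, Q v = Algebra.trace F E (QE v))
    (hpol : ∀ u v, polar Q u v = Algebra.trace F E (polar QE u v)) (hw : Q ((ω + 1) • e₁) ≠ 0) (v : V) :
    xx h D hw v = v + (polar QE e₂ v + polar QE e₂ v * polar QE e₂ v) • e₂ +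
      (ω * polar QE e₁ v + polar QE e₁ v * polar QE e₁ v +
        (ω + 1) * (polar QE e₂ v + polar QE e₂ v * polar QE e₂ v)) • e₁ := by
  set a := polar QE e₂ v with ha
  set b := polar QE e₁ v with hb
  set c := a + a * a with hc
  set yF := (yy h D).restrictScalars F with hyF
  have hyO : yF ∈ O Q := res_mem hval (yy_mem h D)
  have hyw : yF ((ω + 1) • e₁) = e₂ := by
    show yy h D ((ω + 1) • e₁) = e₂
    rw [yy_apply, polar_smul_right, polar_smul_right, D.p', h.alt, smul_zero, mul_zero, add_zero, add_zero, smul_eq_mul,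
      mul_one]
    have e1 : ω * (ω + 1) = 1 := by linear_combination h.sq + ω * h.two
    rw [e1, one_smul, ← add_smul, h.add_self, zero_smul, zero_add]
  have hv' : Q (yF ((ω + 1) • e₁)) ≠ 0 := by rw [hyO]; exact hw
  have e0 : xx h D hw v = refl Q ((ω + 1) • e₁) hw (refl Q (yF ((ω + 1) • e₁)) hv' v) := by
    rw [xx, refl_inv, mul_assoc, mul_assoc, ← mul_assoc yF, refl_conj hyO hw hv']
    rfl
  have hQe : Q e₂ = 1 := by rw [hval, D.q2, h.trω]
  have e1 : refl Q (yF ((ω + 1) • e₁)) hv' v = v + c • e₂ := by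
    rw [refl_apply, hyw, hQe, inv_one, one_mul, hpol, ← ha, hc, ← h.tt a, algebraMap_smul, sub_eq_add_neg, ← neg_smul,
      h.negF]
  have e2 : ∀ z, refl Q ((ω + 1) • e₁) hw z = z + (((ω + 1) * polar QE e₁ z +
      ((ω + 1) * polar QE e₁ z) * ((ω + 1) * polar QE e₁ z)) * (ω + 1)) • e₁ := by
    intro z
    rw [refl_apply, Q_ww h D hval, inv_one, one_mul, hpol, polar_smul_left, smul_eq_mul, ← h.tt, mul_smul,
      algebraMap_smul, sub_eq_add_neg, ← neg_smul, h.negF]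
  rw [e0, e1, e2, polar_add_right, polar_smul_right, D.p, ← hb, smul_eq_mul, mul_one]
  have hcc : c * c = c := by
    rw [hc]
    linear_combination h.pow_four a + (a * a * a) * h.two
  congr 2
  linear_combination ((ω + 1) * ((b + c) * (b + c)) + b + b * b) * h.sq + (ω + 1) * (3 * ω + 2) * hcc +
    ((ω + 1) * ((ω + 1) * b * b + (3 * ω + 2) * b * c + (2 * ω + 1) * c) + (ω + 1) * b + ω * (b * b)) * h.two

end

end Cfsg.Agent.H571.EP.Two
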