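import Cfsg.Agent.LieClassical.OrthFinite

/-!
# Quadratic spaces over the field with two elements with a self-adjoint field of order four (helper571, S3499 Om-C3, q = 2)
-/

set_option autoImplicit false
set_option linter.unusedSectionVars false

namespace Cfsg.Agent.H571.EP.Two

open QuadraticMap Module
open Cfsg.Agent.LieClassical.OrthCore Cfsg.Agent.LieClassical.OrthTrans Cfsg.Agent.LieClassical.OrthFinite

section field4

variable {F E : Type*} [Field F] [Field E] [Algebra F E]

/-- `F` has two elements, `E` has four elements `0, 1, ω, ω + 1`. -/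
structure Om (F : Type*) {E : Type*} [Field F] [Field E] [Algebra F E] (ω : E) : Prop where
  f2 : ∀ c : F, c = 0 ∨ c = 1
  twoF : (2 : F) = 0
  two : (2 : E) = 0
  sq : ω * ω = ω + 1
  tr1 : Algebra.trace F E 1 = 0
  trω : Algebra.trace F E ω = 1
  all : ∀ k : E, k = 0 ∨ k = 1 ∨ k = ω ∨ k = ω + 1

theorem exists_om [Fintype F] [Finite E] (h2 : Fintype.card F = 2) (hE : finrank F E = 2) : ∃ ω : E, Om F ω := by
  classical
  have := Fintype.ofFinite E
  have hcE : Fintype.card E = 4 := by
    rw [Module.card_eq_pow_finrank (K := F) (V := E), h2, hE]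
    norm_num
  have hf2 : ∀ c : F, c = 0 ∨ c = 1 := by
    intro c
    by_contra hcon
    push Not at hcon
    have h3 : ({0, 1, c} : Finset F).card = 3 := by
      rw [Finset.card_eq_three]
      exact ⟨0, 1, c, zero_ne_one, hcon.1.symm, hcon.2.symm, rfl⟩
    have := Finset.card_le_univ ({0, 1, c} : Finset F)
    omega
  have htwoF : (2 : F) = 0 := by
    rcases hf2 2 with h | h
    · exact h
    · exfalso
      have h3 : (1 : F) = 0 := by
        have h4 : (2 : F) - 1 = 0 := by rw [h, sub_self]
        have h5 : (2 : F) - 1 = 1 := by norm_num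
        rw [← h5, h4]
      exact one_ne_zero h3
  have htwo : (2 : E) = 0 := by
    have h3 : algebraMap F E 2 = 0 := by rw [htwoF, map_zero]
    rwa [map_ofNat] at h3
  obtain ⟨ω, hω0, hω1⟩ : ∃ ω : E, ω ≠ 0 ∧ ω ≠ 1 := by
    by_contra hcon
    push Not at hcon
    have h3 : (Finset.univ : Finset E) ⊆ {0, 1} := by
      intro k _
      rw [Finset.mem_insert, Finset.mem_singleton]
      by_cases hk : k = 0
      · exact Or.inl hk
      · exact Or.inr (hcon k hk)
    have h4 := Finset.card_le_card h3
    rw [Finset.card_univ, hcE] at h4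
    have h5 := Finset.card_le_two (a := (0 : E)) (b := 1)
    omega
  have h3 : ω ^ 4 = ω := by
    have := FiniteField.pow_card ω
    rwa [hcE] at this
  have hsq : ω * ω = ω + 1 := by
    have h4 : ω * ((ω - 1) * (ω * ω + ω + 1)) = 0 := by
      have h5 : ω * ((ω - 1) * (ω * ω + ω + 1)) = ω ^ 4 - ω := by ring
      rw [h5, h3, sub_self]
    have h5 : ω * ω + ω + 1 = 0 := by
      rcases mul_eq_zero.1 h4 with h6 | h6
      · exact absurd h6 hω0
      · rcases mul_eq_zero.1 h6 with h7 | h7
        · exact absurd (sub_eq_zero.1 h7) hω1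
        · exact h7
    linear_combination h5 - (ω + 1) * htwo
  have hall : ∀ k : E, k = 0 ∨ k = 1 ∨ k = ω ∨ k = ω + 1 := by
    intro k
    by_contra hcon
    push Not at hcon
    obtain ⟨h4, h5, h6, h7⟩ := hcon
    have h8 : ω + 1 ≠ 0 := by
      intro h
      rw [h] at hsq
      exact hω0 (mul_self_eq_zero.1 hsq)
    have h9 : ω + 1 ≠ 1 := by
      intro h
      exact hω0 (add_eq_right.1 h)
    have h10 : ω + 1 ≠ ω := by
      intro h
      exact one_ne_zero (add_eq_left.1 h)
    have h11 : ({0, 1, ω, ω + 1, k} : Finset E).card = 5 := by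
      rw [Finset.card_insert_of_notMem, Finset.card_insert_of_notMem, Finset.card_insert_of_notMem,
        Finset.card_insert_of_notMem, Finset.card_singleton]
      · simp only [Finset.mem_singleton]; exact h7.symm
      · simp only [Finset.mem_insert, Finset.mem_singleton, not_or]; exact ⟨h10.symm, h6.symm⟩
      · simp only [Finset.mem_insert, Finset.mem_singleton, not_or]; exact ⟨hω1.symm, h9.symm, h5.symm⟩
      · simp only [Finset.mem_insert, Finset.mem_singleton, not_or]; exact ⟨zero_ne_one, hω0.symm, h8.symm, h4.symm⟩
    have := Finset.card_le_univ ({0, 1, ω, ω + 1, k} : Finset E)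
    omega
  have htr1 : Algebra.trace F E 1 = 0 := by
    have h4 := Algebra.trace_algebraMap (S := E) (1 : F)
    rw [map_one, hE] at h4
    rw [h4, two_nsmul, one_add_one_eq_two, htwoF]
  have hfd : FiniteDimensional F E := Module.finite_of_finrank_pos (by omega)
  have htrω : Algebra.trace F E ω = 1 := by
    rcases hf2 (Algebra.trace F E ω) with h | h
    · exfalso
      have hz : ∀ k : E, Algebra.trace F E k = 0 := by
        intro k
        rcases hall k with rfl | rfl | rfl | rfl
        · exact map_zero _
        · exact htr1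
        · exact h
        · rw [map_add, h, htr1, add_zero]
      obtain ⟨k, hk⟩ := Algebra.trace_surjective F E 1
      rw [hz] at hk
      exact zero_ne_one hk
    · exact h
  exact ⟨ω, hf2, htwoF, htwo, hsq, htr1, htrω, hall⟩

variable {ω : E} (h : Om F ω)
include h

theorem Om.ne_zero : ω ≠ 0 := by
  intro e
  have h1 := h.sq
  rw [e, mul_zero, zero_add] at h1
  exact zero_ne_one h1

theorem Om.ne_one : ω ≠ 1 := by
  intro e
  have h1 := h.trω
  rw [e, h.tr1] at h1
  exact zero_ne_one h1

theorem Om.add_self (k : E) : k + k = 0 := by rw [← two_mul, h.two, zero_mul]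

theorem Om.neg (k : E) : -k = k := neg_eq_of_add_eq_zero_left (h.add_self k)

theorem Om.add_selfF (k : F) : k + k = 0 := by rw [← two_mul, h.twoF, zero_mul]

theorem Om.negF (k : F) : -k = k := neg_eq_of_add_eq_zero_left (h.add_selfF k)

theorem Om.pow_four (k : E) : k * k * (k * k) = k := by
  rcases h.all k with rfl | rfl | rfl | rfl
  · simp
  · simp
  · rw [h.sq]
    linear_combination h.sq + (k + 1) * h.two
  · linear_combination (ω * ω + 5 * ω + 12) * h.sq + (10 * ω + 6) * h.two

theorem Om.ext_tr {a b : E} (hab : ∀ k, Algebra.trace F E (k * a) = Algebra.trace F E (k * b)) : a = b := by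
  rw [← sub_eq_zero]
  have h1 : Algebra.trace F E (a - b) = 0 := by
    have := hab 1
    rw [one_mul, one_mul] at this
    rw [map_sub, this, sub_self]
  have h2 : Algebra.trace F E (ω * (a - b)) = 0 := by rw [mul_sub, map_sub, hab, sub_self]
  rcases h.all (a - b) with e | e | e | e
  · exact e
  · exfalso; rw [e, mul_one, h.trω] at h2; exact one_ne_zero h2
  · exfalso; rw [e, h.trω] at h1; exact one_ne_zero h1
  · exfalso; rw [e, map_add, h.trω, h.tr1, add_zero] at h1; exact one_ne_zero h1

theorem Om.eq_zero {a : E} (h1 : Algebra.trace F E a = 0) (h2 : Algebra.trace F E (ω * a) = 0) : a = 0 := by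
  apply h.ext_tr
  intro k
  rw [mul_zero, map_zero]
  rcases h.all k with rfl | rfl | rfl | rfl
  · rw [zero_mul, map_zero]
  · rw [one_mul, h1]
  · exact h2
  · rw [add_mul, one_mul, map_add, h1, h2, add_zero]

/-- an element of `F` is not a multiple of `ω` -/
theorem Om.indep {s t : F} (hst : algebraMap F E s = ω * algebraMap F E t) : s = 0 ∧ t = 0 := by
  rcases h.f2 t with rfl | rfl
  · rw [map_zero, mul_zero] at hst
    exact ⟨(map_eq_zero_iff _ (algebraMap F E).injective).1 hst, rfl⟩
  · exfalso
    rw [map_one, mul_one] at hst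
    rcases h.f2 s with rfl | rfl
    · rw [map_zero] at hst
      exact h.ne_zero hst.symm
    · rw [map_one] at hst
      exact h.ne_one hst.symm

end field4

section form

variable {F E V : Type*} [Field F] [Field E] [Algebra F E] [AddCommGroup V] [Module F V]
  [Module E V] [IsScalarTower F E V] {Q : QuadraticForm F V} {ω : E}

/-- **The form over `E`** (`E` of order four). -/
theorem exists_kform [FiniteDimensional F E] [Algebra.IsSeparable F E] (h : Om F ω) (hQ : Nondeg Q)
    (hself : ∀ (k : E) (u v : V), polar Q (k • u) v = polar Q u (k • v)) :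
    ∃ QE : QuadraticForm E V, Nondeg QE ∧ (∀ v, Q v = Algebra.trace F E (QE v)) ∧
      (∀ u v, polar Q u v = Algebra.trace F E (polar QE u v)) ∧
      (∀ (k : E) v, Q ((k * k) • v) = Algebra.trace F E (k * QE v)) := by
  have hnd := traceForm_nondegenerate F E
  have hrep : ∀ φ : Module.Dual F E, ∃ c : E, ∀ x : E, Algebra.trace F E (x * c) = φ x := by
    intro φ
    refine ⟨(LinearMap.BilinForm.toDual _ hnd).symm φ, fun x => ?_⟩
    have h1 := LinearMap.BilinForm.apply_toDual_symm_apply (B := Algebra.traceForm F E) (hB := hnd) φ x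
    rw [Algebra.traceForm_apply] at h1
    rw [mul_comm]
    exact h1
  have hex : ∀ u v : V, ∃ c : E, ∀ x : E, Algebra.trace F E (x * c) = polar Q (x • u) v := by
    intro u v
    exact hrep
      { toFun := fun x => polar Q (x • u) v
        map_add' := fun x y => by rw [add_smul, polar_add_left]
        map_smul' := fun a x => by rw [smul_assoc, polar_smul_left, RingHom.id_apply] }
  choose b hb using hex
  have badd : ∀ u u' v, b (u + u') v = b u v + b u' v := by
    intro u u' v
    apply h.ext_tr
    intro x
    rw [hb, mul_add, map_add, hb, hb, smul_add, polar_add_left]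
  have bsmul : ∀ (k : E) u v, b (k • u) v = k * b u v := by
    intro k u v
    apply h.ext_tr
    intro x
    rw [hb, smul_smul, ← hb, mul_assoc]
  have bsymm : ∀ u v, b u v = b v u := by
    intro u v
    apply h.ext_tr
    intro x
    rw [hb, hb, hself, polar_comm]
  have balt : ∀ v, b v v = 0 := by
    intro v
    apply h.ext_tr
    intro x
    have h1 : polar Q ((x * x) • v) ((x * x) • v) = 0 := by rw [polar_self', h.twoF, zero_mul]
    rw [hself, smul_smul, ← hself, ← hb, h.pow_four] at h1
    rw [h1, mul_zero, map_zero]
  have hsq : ∀ (x y : E) (v : V), polar Q (x • v) (y • v) = 0 := by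
    intro x y v
    rw [← hself, smul_smul, ← hb, balt, mul_zero, map_zero]
  have hexq : ∀ v : V, ∃ c : E, ∀ x : E, Algebra.trace F E (x * c) = Q ((x * x) • v) := by
    intro v
    exact hrep
      { toFun := fun x => Q ((x * x) • v)
        map_add' := fun x y => by
          have e1 : (x + y) * (x + y) = x * x + y * y := by linear_combination (x * y) * h.two
          rw [e1, add_smul, Q_add, hsq, add_zero]
        map_smul' := fun a x => by
          have e1 : (a • x) * (a • x) = a • (a • (x * x)) := by
            simp only [Algebra.smul_def]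
            ring
          rw [e1, smul_assoc, smul_assoc, QuadraticMap.map_smul, QuadraticMap.map_smul, RingHom.id_apply, smul_eq_mul,
            smul_eq_mul, smul_eq_mul]
          rcases h.f2 a with rfl | rfl
          · simp
          · simp }
  choose qe hqe using hexq
  have qadd : ∀ u v, qe (u + v) = qe u + qe v + b u v := by
    intro u v
    apply h.ext_tr
    intro x
    rw [hqe, mul_add, mul_add, map_add, map_add, hqe, hqe, hb, smul_add, Q_add, hself, smul_smul, ← hself,
      h.pow_four]
  have qsmul : ∀ (k : E) v, qe (k • v) = k * k * qe v := by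
    intro k v
    apply h.ext_tr
    intro x
    rw [hqe, ← mul_assoc x, hqe, smul_smul]
    congr 2
    have := h.pow_four k
    linear_combination (-(x * x)) * this
  let B : LinearMap.BilinForm E V :=
    LinearMap.mk₂ E b badd (fun k u v => by rw [bsmul, smul_eq_mul])
      (fun u v v' => by rw [bsymm, badd, bsymm v, bsymm v']) (fun k u v => by rw [bsymm, bsmul, bsymm v, smul_eq_mul])
  let QE : QuadraticForm E V :=
    { toFun := qe
      toFun_smul := fun k v => by rw [qsmul, smul_eq_mul]
      exists_companion' := ⟨B, fun u v => qadd u v⟩ }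
  have hval : ∀ v, QE v = qe v := fun v => rfl
  have hpE : ∀ u v, polar QE u v = b u v := by
    intro u v
    rw [QuadraticMap.polar, hval, hval, hval, qadd]
    ring
  refine ⟨QE, ?_, ?_, ?_, ?_⟩
  · intro x hx
    apply hQ
    intro y
    have h1 := hb x y 1
    rw [one_mul, one_smul] at h1
    rw [← h1, ← hpE, hx, map_zero]
  · intro v
    have h1 := hqe v 1
    rw [one_mul, one_mul, one_smul] at h1
    exact h1.symm
  · intro u v
    have h1 := hb u v 1
    rw [one_mul, one_smul] at h1
    rw [hpE]
    exact h1.symm
  · intro k v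
    exact (hqe v k).symm

end form

end Cfsg.Agent.H571.EP.Two
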